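import Cfsg.Agent.Lib.Helper68.MG.Defs

/-! S3620 (MG farm of helper68): the extension lemma E (helper16). -/

set_option autoImplicit false

namespace Cfsg.Agent.Lib.Helper16.MG

open Cfsg.Agent.Lib.Helper68.MG

universe u
variable {Ω : Type u}

theorem E_ncard_image [Finite Ω] (g : Equiv.Perm Ω) (A : Set Ω) : (g '' A).ncard = A.ncard :=
  Set.ncard_image_of_injective A g.injective

/-- an element fixing `F` pointwise stabilises the complement -/
theorem E_image_compl (μ : Equiv.Perm Ω) (F : Set Ω) (h : ∀ f ∈ F, μ f = f) : μ '' Fᶜ = Fᶜ := by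
  have h1 : μ '' F = F := by
    ext x
    constructor
    · rintro ⟨f, hf, rfl⟩; rw [h f hf]; exact hf
    · intro hx; exact ⟨x, hx, h x hx⟩
  rw [Set.image_compl_eq μ.bijective, h1]

/-- conjugate of the fixer -/
theorem E_conj_mem {G : Subgroup (Equiv.Perm Ω)} {F F' : Set Ω} {g k : Equiv.Perm Ω} (hg : g ∈ G)
    (hk : k ∈ Fx G F) (hF' : F' ⊆ g '' F) : g * k * g⁻¹ ∈ Fx G F' := by
  refine ⟨mul_mem (mul_mem hg hk.1) (inv_mem hg), fun f hf => ?_⟩
  obtain ⟨f0, hf0, rfl⟩ := hF' hf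
  simp [hk.2 f0 hf0]

theorem E_Fx_mono {G : Subgroup (Equiv.Perm Ω)} {F F' : Set Ω} (h : F' ⊆ F) : Fx G F ≤ Fx G F' :=
  fun _ hk => ⟨hk.1, fun f hf => hk.2 f (h hf)⟩

/-- Jordan property of the union of two overlapping Jordan sets -/
theorem E_jor {G : Subgroup (Equiv.Perm Ω)} {F : Set Ω} (hJ : Jor G F) {g : Equiv.Perm Ω} (hg : g ∈ G)
    (hmeet : ¬ Disjoint (g '' Fᶜ) Fᶜ) : Jor G (F \ (g '' Fᶜ \ Fᶜ)) := by
  obtain ⟨z, hz1, hz2⟩ := Set.not_disjoint_iff.1 hmeet
  set F' := F \ (g '' Fᶜ \ Fᶜ) with hF'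
  have hsub1 : F' ⊆ F := Set.diff_subset
  have hsub2 : F' ⊆ g '' F := by
    intro f hf
    have hf1 : f ∈ F := hf.1
    have hf2 : f ∉ g '' Fᶜ := fun h => hf.2 ⟨h, fun h' => h' hf1⟩
    rw [Set.image_compl_eq g.bijective] at hf2
    exact not_not.1 hf2
  -- every point outside F' can be moved to z
  have key : ∀ x, x ∉ F' → ∃ k ∈ Fx G F', k x = z := by
    intro x hx
    by_cases hxF : x ∈ F
    · -- x ∈ g '' Fᶜ
      have hx2 : x ∈ g '' Fᶜ := by
        by_contra h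
        exact hx ⟨hxF, fun h' => h h'.1⟩
      obtain ⟨x0, hx0, rfl⟩ := hx2
      obtain ⟨z0, hz0, rfl⟩ := hz1
      obtain ⟨k, hk, hkx⟩ := hJ x0 hx0 z0 hz0
      exact ⟨g * k * g⁻¹, E_conj_mem hg hk hsub2, by simp [hkx]⟩
    · obtain ⟨k, hk, hkx⟩ := hJ x hxF z hz2
      exact ⟨k, E_Fx_mono hsub1 hk, hkx⟩
  intro x hx y hy
  obtain ⟨k1, hk1, h1⟩ := key x hx
  obtain ⟨k2, hk2, h2⟩ := key y hy
  refine ⟨k2⁻¹ * k1, mul_mem (inv_mem hk2) hk1, ?_⟩
  rw [Equiv.Perm.mul_apply, h1, Equiv.Perm.inv_eq_iff_eq, h2]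

/-- the extension lemma -/
theorem exists_ext [Finite Ω] (G : Subgroup (Equiv.Perm Ω)) (hP : Prim G) (F : Set Ω) (hF : F.Nonempty)
    (h2 : 2 ≤ Fᶜ.ncard) (hJ : Jor G F) : ∃ B, Ext G F B := by
  classical
  set Λ : Set Ω := Fᶜ with hΛ
  -- Λ is not a block
  have h1 : ∃ g ∈ G, g '' Λ ≠ Λ ∧ ¬ Disjoint (g '' Λ) Λ := by
    by_contra hcon
    push_neg at hcon
    have hb : ∀ g ∈ G, g '' Λ = Λ ∨ Disjoint (g '' Λ) Λ := by
      intro g hg
      by_cases h : g '' Λ = Λ
      · exact Or.inl h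
      · exact Or.inr (hcon g hg h)
    rcases hP.2 Λ hb with hs | hu
    · have : Λ.ncard ≤ 1 := (Set.ncard_le_one (Set.toFinite _)).2 (fun a ha b hb => hs ha hb)
      omega
    · obtain ⟨f, hf⟩ := hF
      have : f ∈ Λ := by rw [hu]; trivial
      exact this hf
  have hex : ∃ n, ∃ g ∈ G, g '' Λ ≠ Λ ∧ ¬ Disjoint (g '' Λ) Λ ∧ (g '' Λ \ Λ).ncard = n := by
    obtain ⟨g, hg, ha, hb⟩ := h1
    exact ⟨_, g, hg, ha, hb, rfl⟩
  obtain ⟨g, hg, hne, hmeet, he⟩ := Nat.find_spec hex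
  have hmin : ∀ g' ∈ G, g' '' Λ ≠ Λ → ¬ Disjoint (g' '' Λ) Λ → (g '' Λ \ Λ).ncard ≤ (g' '' Λ \ Λ).ncard := by
    intro g' hg' ha hb
    rw [he]
    exact Nat.find_min' hex ⟨g', hg', ha, hb, rfl⟩
  set B : Set Ω := g '' Λ \ Λ with hB
  have hBΛ : Disjoint B Λ := Set.disjoint_sdiff_left
  have hlt : B.ncard < Λ.ncard := by
    obtain ⟨z, hz1, hz2⟩ := Set.not_disjoint_iff.1 hmeet
    have hss : B ⊂ g '' Λ := by
      refine ⟨Set.diff_subset, fun h => ?_⟩
      exact (h hz1).2 hz2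
    have := Set.ncard_lt_ncard hss (Set.toFinite _)
    rwa [E_ncard_image] at this
  have hsub : B ⊆ F := by
    intro x hx
    by_contra h
    exact hx.2 h
  have hU : (F \ B)ᶜ = Λ ∪ B := by
    ext x
    simp only [Set.mem_compl_iff, Set.mem_diff, not_and, not_not, Set.mem_union, hΛ]
    constructor
    · intro h
      by_cases hx : x ∈ F
      · exact Or.inr (h hx)
      · exact Or.inl hx
    · rintro (h | h) hx
      · exact absurd hx h
      · exact h
  refine ⟨B, hsub, ?_, E_jor hJ hg hmeet, ?_, hlt⟩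
  · by_contra hem
    rw [Set.not_nonempty_iff_eq_empty, hB, Set.diff_eq_empty] at hem
    exact hne (Set.eq_of_subset_of_ncard_le hem (by rw [E_ncard_image]) (Set.toFinite _))
  · intro μ hμ
    have hμU : μ '' (Λ ∪ B) = Λ ∪ B := by
      rw [← hU]; exact E_image_compl μ _ hμ.2
    have hdisj : Disjoint (μ '' B) (μ '' Λ) := (Set.disjoint_image_iff μ.injective).2 hBΛ
    have hΛsub : μ '' Λ ⊆ Λ ∪ B := by
      rw [← hμU]; exact Set.image_mono Set.subset_union_left
    have hBsub : μ '' B ⊆ Λ ∪ B := by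
      rw [← hμU]; exact Set.image_mono Set.subset_union_right
    by_cases hμΛ : μ '' Λ = Λ
    · left
      rw [hμΛ] at hdisj
      apply Set.Subset.antisymm
      · intro x hx
        rcases hBsub hx with h | h
        · exact absurd h (Set.disjoint_left.1 hdisj hx)
        · exact h
      · intro x hx
        have : x ∈ μ '' (Λ ∪ B) := by rw [hμU]; exact Or.inr hx
        rw [Set.image_union, hμΛ] at this
        rcases this with h | h
        · exact absurd h (Set.disjoint_left.1 hBΛ hx)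
        · exact h
    · right
      have hm : ¬ Disjoint (μ '' Λ) Λ := by
        intro hd
        have c1 : (μ '' Λ ∪ Λ).ncard = (μ '' Λ).ncard + Λ.ncard :=
          Set.ncard_union_eq hd (Set.toFinite _) (Set.toFinite _)
        have c2 : (μ '' Λ ∪ Λ).ncard ≤ (Λ ∪ B).ncard :=
          Set.ncard_le_ncard (Set.union_subset hΛsub Set.subset_union_left) (Set.toFinite _)
        have c3 : (Λ ∪ B).ncard ≤ Λ.ncard + B.ncard := Set.ncard_union_le _ _
        rw [E_ncard_image] at c1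
        omega
      have hle := hmin μ hμ.1 hμΛ hm
      have hs : μ '' Λ \ Λ ⊆ B := by
        intro x hx
        rcases hΛsub hx.1 with h | h
        · exact absurd h hx.2
        · exact h
      have heq : μ '' Λ \ Λ = B := Set.eq_of_subset_of_ncard_le hs hle (Set.toFinite _)
      have hBin : B ⊆ μ '' Λ := by rw [← heq]; exact Set.diff_subset
      exact Set.disjoint_of_subset_right hBin hdisj

end Cfsg.Agent.Lib.Helper16.MG
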